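import Mathlib
import Cfsg.Agent.Lib.Helper49.RUW.Defs

/-!
# RUW package [CENK]

The subgroup `K = {w ∈ W | cg c w ∈ Z₃ ∪ y Z₃}` of order `≥ 2^8` all of whose squares lie in `Z₂`.
-/

set_option autoImplicit false

namespace Cfsg.Agent.Lib.Helper94.RUW

open Cfsg.Agent.Lib.Helper49.RUW

universe u

/-- `cg g (a * b) = b⁻¹ * cg g a * b * cg g b`. -/
theorem cg_mul {T : Type u} [Group T] (g a b : T) :
    cg g (a * b) = b⁻¹ * cg g a * b * cg g b := by
  unfold cg; group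

/-- `cg g a⁻¹ = a * (cg g a)⁻¹ * a⁻¹`. -/
theorem cg_inv {T : Type u} [Group T] (g a : T) :
    cg g a⁻¹ = a * (cg g a)⁻¹ * a⁻¹ := by
  unfold cg; group

/-- The operators `cg c` and `cg x` commute on `W` modulo `Z₃` when `W / Z₃` is abelian and
`c x c⁻¹ x⁻¹ ∈ W`. -/
theorem cg_cg_comm_mod {T : Type u} [Group T] (W Z₃ : Subgroup T) (hWn : W.Normal)
    (hcommW : ∀ p ∈ W, ∀ q ∈ W, p * q * p⁻¹ * q⁻¹ ∈ Z₃) (c x : T)
    (hcx : c * x * c⁻¹ * x⁻¹ ∈ W) (a : T) (ha : a ∈ W) :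
    (cg x (cg c a))⁻¹ * cg c (cg x a) ∈ Z₃ := by
  have hb : x * a * x⁻¹ ∈ W := hWn.conj_mem a ha x
  have he : c * a * c⁻¹ ∈ W := hWn.conj_mem a ha c
  have hg : x * (c * a * c⁻¹) * x⁻¹ ∈ W := hWn.conj_mem _ he x
  have hcomm_le : commutator ↥W ≤ Z₃.subgroupOf W := by
    rw [commutator_def, Subgroup.commutator_le]
    intro g₁ _ g₂ _
    rw [Subgroup.mem_subgroupOf, commutatorElement_def]
    exact hcommW g₁ g₁.2 g₂ g₂.2
  have key : ∀ (A B E G D : Abelianization ↥W),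
      G⁻¹ * B * A⁻¹ * E * B⁻¹ * A * E⁻¹ * D * G * D⁻¹ = 1 := by
    intro A B E G D
    apply Additive.ofMul.injective
    simp only [ofMul_mul, ofMul_inv, ofMul_one]
    abel
  let a' : ↥W := ⟨a, ha⟩
  let b' : ↥W := ⟨_, hb⟩
  let e' : ↥W := ⟨_, he⟩
  let g' : ↥W := ⟨_, hg⟩
  let d' : ↥W := ⟨_, hcx⟩
  let r' : ↥W := g'⁻¹ * b' * a'⁻¹ * e' * b'⁻¹ * a' * e'⁻¹ * d' * g' * d'⁻¹
  have hr : (cg x (cg c a))⁻¹ * cg c (cg x a) = (r' : T) := by
    simp only [r', a', b', e', g', d', cg, Subgroup.coe_mul, Subgroup.coe_inv]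
    group
  have h1 := key (Abelianization.of a') (Abelianization.of b') (Abelianization.of e')
    (Abelianization.of g') (Abelianization.of d')
  simp only [← map_mul, ← map_inv] at h1
  have h2 : r' ∈ (Abelianization.of : ↥W →* Abelianization ↥W).ker := h1
  rw [Abelianization.ker_of] at h2
  rw [hr]
  exact Subgroup.mem_subgroupOf.mp (hcomm_le h2)

theorem pkgCenK (hSqG : PkgSqG.{u}) : PkgCenK.{u} := by
  intro T _ _ W X₁ A Z₂ Z₃ c x t₀ P₁ P₂ P₃ y hS hC hZ hxx hcx hP1 hP2 hy3 hyZ hyc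
  have hWn : W.Normal := hS.Wn
  have hZ3n : Z₃.Normal := hZ.Z3n
  have hZ2n : Z₂.Normal := hZ.Z2n
  -- membership
  have hy2 : y ∈ P₂ := ((hC.m3 y).mp hy3).1
  have hy1 : y ∈ P₁ := ((hC.m2 y).mp hy2).1
  have hyW : y ∈ W := ((hC.m1 y).mp hy1).1
  have hcgW : ∀ g : T, ∀ w ∈ W, cg g w ∈ W := fun g w hw =>
    W.mul_mem (W.inv_mem hw) (hWn.conj_mem w hw g)
  have hP1W : P₁ ≤ W := fun p hp => ((hC.m1 p).mp hp).1
  -- c ∉ W
  have hcW : c ∉ W := by
    intro hc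
    have hle : W ≤ P₁ := by
      intro p hp
      refine (hC.m1 p).mpr ⟨hp, ?_⟩
      have := hZ.commW p⁻¹ (W.inv_mem hp) c hc
      have e : cg c p = p⁻¹ * c * p⁻¹⁻¹ * c⁻¹ := by unfold cg; group
      rw [e]; exact this
    have : P₁ = W := le_antisymm hP1W hle
    have h := hZ.cardW
    rw [← this, hP1] at h
    norm_num at h
  -- x ∉ W
  have hxW : x ∉ W := by
    intro hx
    have hle : P₁ ≤ P₂ := by
      intro p hp
      refine (hC.m2 p).mpr ⟨hp, ?_⟩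
      have hpW := hP1W hp
      have := hZ.commW p⁻¹ (W.inv_mem hpW) x hx
      have e : cg x p = p⁻¹ * x * p⁻¹⁻¹ * x⁻¹ := by unfold cg; group
      rw [e]; exact this
    have hle' : P₂ ≤ P₁ := fun p hp => ((hC.m2 p).mp hp).1
    have : P₂ = P₁ := le_antisymm hle' hle
    rw [this, hP1] at hP2
    norm_num at hP2
  have hcA : c ∈ A := hS.X12 hS.g1
  have hxA : x ∈ A := hS.g2
  have sqc : ∀ u ∈ W, cg c u * cg c u ∈ Z₂ := hSqG W A Z₂ Z₃ hWn hZ c hcA hcW hS.sq1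
  have sqx : ∀ u ∈ W, cg x u * cg x u ∈ Z₂ := hSqG W A Z₂ Z₃ hWn hZ x hxA hxW hxx
  -- equalities
  have eq1 : Nat.card W * Nat.card Z₃ = Nat.card P₁ ^ 2 := by
    rw [hZ.cardW, hZ.card3, hP1]; norm_num
  have eq2 : Nat.card P₁ * Nat.card Z₃ = Nat.card P₂ ^ 2 := by
    rw [hP1, hZ.card3, hP2]; norm_num
  obtain ⟨p₁, hp₁, hp₁y⟩ := hC.s2 eq2 y hy2
  obtain ⟨u₀, hu₀, hu₀p⟩ := hC.s1 eq1 p₁ hp₁
  -- centrality
  have cenZ : ∀ z ∈ Z₃, ∀ w ∈ W, w * z = z * w := fun z hz w hw => hZ.cenW w hw z hz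
  have hZ3W : Z₃ ≤ W := hZ.Z3W
  -- the subgroup Y = Z₃ ∪ y Z₃
  have hyinv : ∀ w ∈ W, y⁻¹ * w = w * y⁻¹ := by
    intro w hw
    have := hyc w hw
    calc y⁻¹ * w = y⁻¹ * (w * y) * y⁻¹ := by group
      _ = y⁻¹ * (y * w) * y⁻¹ := by rw [this]
      _ = w * y⁻¹ := by group
  have hyy : y * y ∈ Z₃ := hZ.sqW y hyW
  let Y : Subgroup T :=
    { carrier := {v | v ∈ Z₃ ∨ y⁻¹ * v ∈ Z₃}
      one_mem' := Or.inl Z₃.one_mem
      mul_mem' := by
        intro a b ha hb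
        rcases ha with ha | ha <;> rcases hb with hb | hb
        · exact Or.inl (Z₃.mul_mem ha hb)
        · right
          have : y⁻¹ * (a * b) = a * (y⁻¹ * b) := by
            rw [← mul_assoc, hyinv a (hZ3W ha), mul_assoc]
          rw [this]; exact Z₃.mul_mem ha hb
        · right
          rw [← mul_assoc]; exact Z₃.mul_mem ha hb
        · left
          have h1 : (y⁻¹ * a) * y = y * (y⁻¹ * a) := hyc _ (hZ3W ha)
          have : a * b = y * y * ((y⁻¹ * a) * (y⁻¹ * b)) := by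
            calc a * b = y * ((y⁻¹ * a) * y) * (y⁻¹ * b) := by group
              _ = y * (y * (y⁻¹ * a)) * (y⁻¹ * b) := by rw [h1]
              _ = y * y * ((y⁻¹ * a) * (y⁻¹ * b)) := by group
          rw [this]; exact Z₃.mul_mem hyy (Z₃.mul_mem ha hb)
      inv_mem' := by
        intro a ha
        rcases ha with ha | ha
        · exact Or.inl (Z₃.inv_mem ha)
        · right
          have h1 : y⁻¹ * (y⁻¹ * a)⁻¹ = (y⁻¹ * a)⁻¹ * y⁻¹ := hyinv _ (hZ3W (Z₃.inv_mem ha))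
          have : y⁻¹ * a⁻¹ = (y⁻¹ * a)⁻¹ * (y * y)⁻¹ := by
            calc y⁻¹ * a⁻¹ = (y⁻¹ * (y⁻¹ * a)⁻¹) * y⁻¹ := by group
              _ = ((y⁻¹ * a)⁻¹ * y⁻¹) * y⁻¹ := by rw [h1]
              _ = (y⁻¹ * a)⁻¹ * (y * y)⁻¹ := by group
          rw [this]; exact Z₃.mul_mem (Z₃.inv_mem ha) (Z₃.inv_mem hyy) }
  have hYmem : ∀ v, v ∈ Y ↔ (v ∈ Z₃ ∨ y⁻¹ * v ∈ Z₃) := fun v => Iff.rfl
  have hYW : ∀ v ∈ Y, v ∈ W := by
    intro v hv
    rcases (hYmem v).mp hv with h | h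
    · exact hZ3W h
    · have : v = y * (y⁻¹ * v) := by group
      rw [this]; exact W.mul_mem hyW (hZ3W h)
  -- Y is central in W
  have hYc : ∀ v ∈ Y, ∀ w ∈ W, w * v = v * w := by
    intro v hv w hw
    rcases (hYmem v).mp hv with h | h
    · exact cenZ v h w hw
    · have h1 := hyc w hw
      have h2 := cenZ _ h w hw
      calc w * v = (w * y) * (y⁻¹ * v) := by group
        _ = (y * w) * (y⁻¹ * v) := by rw [h1]
        _ = y * (w * (y⁻¹ * v)) := by group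
        _ = y * ((y⁻¹ * v) * w) := by rw [h2]
        _ = v * w := by group
  have hYconj : ∀ v ∈ Y, ∀ w ∈ W, w⁻¹ * v * w = v := by
    intro v hv w hw
    rw [mul_assoc, ← hYc v hv w hw, inv_mul_cancel_left]
  have hYconj' : ∀ v ∈ Y, ∀ w ∈ W, w * v * w⁻¹ = v := by
    intro v hv w hw
    rw [hYc v hv w hw, mul_inv_cancel_right]
  -- the subgroup K
  let K : Subgroup T :=
    { carrier := {w | w ∈ W ∧ cg c w ∈ Y}
      one_mem' := ⟨W.one_mem, by
        have : cg c (1 : T) = 1 := by unfold cg; group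
        rw [this]; exact Y.one_mem⟩
      mul_mem' := by
        intro a b ha hb
        refine ⟨W.mul_mem ha.1 hb.1, ?_⟩
        rw [cg_mul, hYconj _ ha.2 b hb.1]
        exact Y.mul_mem ha.2 hb.2
      inv_mem' := by
        intro a ha
        refine ⟨W.inv_mem ha.1, ?_⟩
        rw [cg_inv, hYconj' _ (Y.inv_mem ha.2) a ha.1]
        exact Y.inv_mem ha.2 }
  have hKmem : ∀ w, w ∈ K ↔ (w ∈ W ∧ cg c w ∈ Y) := fun w => Iff.rfl
  -- k
  set k : T := cg x u₀ with hk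
  have hkW : k ∈ W := hcgW x u₀ hu₀
  -- cg c k ≡ y
  have hck : y⁻¹ * cg c k ∈ Z₃ := by
    have hop := cg_cg_comm_mod W Z₃ hWn hZ.commW c x hcx u₀ hu₀
    -- cg x p₁ ≡ cg x (cg c u₀)
    set q : T := cg c u₀ with hq
    have hqW : q ∈ W := hcgW c u₀ hu₀
    set z₂ : T := q⁻¹ * p₁ with hz₂
    have hz₂Z : z₂ ∈ Z₃ := hu₀p
    have hp₁eq : p₁ = q * z₂ := by rw [hz₂]; group
    have h3 : (cg x p₁)⁻¹ * cg x q ∈ Z₃ := by
      have e1 : cg x p₁ = z₂⁻¹ * cg x q * z₂ * cg x z₂ := by rw [hp₁eq, cg_mul]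
      have e2 : z₂⁻¹ * cg x q * z₂ = cg x q := by
        rw [mul_assoc, cenZ z₂ hz₂Z _ (hcgW x q hqW), inv_mul_cancel_left]
      rw [e1, e2]
      have : (cg x q * cg x z₂)⁻¹ * cg x q = (cg x z₂)⁻¹ := by group
      rw [this]
      exact Z₃.inv_mem (hZ.Z23 (hZ.act x z₂ hz₂Z))
    have e : y⁻¹ * cg c k = ((cg x p₁)⁻¹ * y)⁻¹ * ((cg x p₁)⁻¹ * cg x q) *
        ((cg x q)⁻¹ * cg c k) := by group
    rw [e]
    exact Z₃.mul_mem (Z₃.mul_mem (Z₃.inv_mem hp₁y) h3) hop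
  have hkK : k ∈ K := (hKmem k).mpr ⟨hkW, Or.inr hck⟩
  have hvY : cg c k ∈ Y := Or.inr hck
  have hkP1 : k ∉ P₁ := by
    intro h
    have h1 : cg c k ∈ Z₃ := ((hC.m1 k).mp h).2
    have : y = cg c k * (y⁻¹ * cg c k)⁻¹ := by group
    exact hyZ (this ▸ Z₃.mul_mem h1 (Z₃.inv_mem hck))
  have hP1K : P₁ ≤ K := fun p hp =>
    (hKmem p).mpr ⟨hP1W hp, Or.inl ((hC.m1 p).mp hp).2⟩
  -- squares of P₁
  have sqP1 : ∀ p ∈ P₁, ∃ u ∈ W, ∃ z ∈ Z₃, p = cg c u * z := by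
    intro p hp
    obtain ⟨u, hu, huz⟩ := hC.s1 eq1 p hp
    exact ⟨u, hu, _, huz, by group⟩
  refine ⟨K, fun w hw => hw.1, ?_, ?_, ?_⟩
  · intro z hz
    exact (hKmem z).mpr ⟨hZ3W hz, Or.inl (hZ.Z23 (hZ.act c z hz))⟩
  · -- cardinality
    have hdvd : Nat.card P₁ ∣ Nat.card K := Subgroup.card_dvd_of_le hP1K
    have hne : Nat.card K ≠ Nat.card P₁ := by
      intro h
      have : P₁ = K := Subgroup.eq_of_le_of_card_ge hP1K (le_of_eq h)
      exact hkP1 (this ▸ hkK)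
    have hpos : 0 < Nat.card K := Nat.card_pos
    rw [hP1] at hdvd hne
    obtain ⟨j, hj⟩ := hdvd
    rw [hj] at hne hpos ⊢
    have hj2 : 2 ≤ j := by
      rcases j with _ | _ | j
      · simp at hpos
      · simp at hne
      · omega
    calc 2 ^ 8 = 2 ^ 7 * 2 := by norm_num
      _ ≤ 2 ^ 7 * j := Nat.mul_le_mul_left _ hj2
  · -- squares
    intro w hw
    obtain ⟨hwW, hwY⟩ := (hKmem w).mp hw
    rcases (hYmem _).mp hwY with h | h
    · -- w ∈ P₁
      have hwP : w ∈ P₁ := (hC.m1 w).mpr ⟨hwW, h⟩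
      obtain ⟨u, hu, z, hz, rfl⟩ := sqP1 w hwP
      have hm : cg c u ∈ W := hcgW c u hu
      have e : cg c u * z * (cg c u * z) = cg c u * cg c u * (z * z) := by
        calc cg c u * z * (cg c u * z) = cg c u * (z * cg c u) * z := by group
          _ = cg c u * (cg c u * z) * z := by rw [cenZ z hz _ hm]
          _ = cg c u * cg c u * (z * z) := by group
      rw [e, hZ.exp z hz, mul_one]
      exact sqc u hu
    · -- w ∈ k P₁
      set p : T := k⁻¹ * w with hp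
      have hpW : p ∈ W := W.mul_mem (W.inv_mem hkW) hwW
      have hpP : p ∈ P₁ := by
        refine (hC.m1 p).mpr ⟨hpW, ?_⟩
        have e1 : cg c p = w⁻¹ * cg c k⁻¹ * w * cg c w := by rw [hp, cg_mul]
        have e2 : cg c k⁻¹ = (cg c k)⁻¹ := by
          rw [cg_inv, hYconj' _ (Y.inv_mem hvY) k hkW]
        have e3 : w⁻¹ * (cg c k)⁻¹ * w = (cg c k)⁻¹ := hYconj _ (Y.inv_mem hvY) w hwW
        rw [e1, e2, e3]
        have : (cg c k)⁻¹ * cg c w = (y⁻¹ * cg c k)⁻¹ * (y⁻¹ * cg c w) := by group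
        rw [this]
        exact Z₃.mul_mem (Z₃.inv_mem hck) h
      obtain ⟨u, hu, z, hz, hpeq⟩ := sqP1 p hpP
      set m : T := cg c u with hm
      have hmW : m ∈ W := hcgW c u hu
      have hweq : w = k * m * z := by
        have : w = k * p := by rw [hp]; group
        rw [this, hpeq]; group
      have hkmW : k * m ∈ W := W.mul_mem hkW hmW
      have e : w * w = (k * k) * (k⁻¹ * m * k * m⁻¹) * (m * m) := by
        calc w * w = k * m * (z * (k * m)) * z := by rw [hweq]; group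
          _ = k * m * ((k * m) * z) * z := by rw [cenZ z hz _ hkmW]
          _ = k * m * (k * m) * (z * z) := by group
          _ = k * m * (k * m) := by rw [hZ.exp z hz, mul_one]
          _ = (k * k) * (k⁻¹ * m * k * m⁻¹) * (m * m) := by group
      rw [e]
      refine Z₂.mul_mem (Z₂.mul_mem (sqx u₀ hu₀) ?_) (sqc u hu)
      -- the commutator
      set f : T := k⁻¹ * u * k * u⁻¹ with hf
      have hfZ : f ∈ Z₃ := by
        have := hZ.commW k⁻¹ (W.inv_mem hkW) u hu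
        simpa [hf] using this
      set u' : T := c * u * c⁻¹ with hu'
      have hu'W : u' ∈ W := hWn.conj_mem u hu c
      set v : T := cg c k with hv
      have hckc : c * k * c⁻¹ = k * v := by rw [hv]; unfold cg; group
      have hqW : k⁻¹ * u' * k ∈ W := W.mul_mem (W.mul_mem (W.inv_mem hkW) hu'W) hkW
      have hcf : c * f * c⁻¹ = k⁻¹ * u' * k * u'⁻¹ := by
        calc c * f * c⁻¹ = (c * k * c⁻¹)⁻¹ * u' * (c * k * c⁻¹) * u'⁻¹ := by
              rw [hf, hu']; group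
          _ = v⁻¹ * (k⁻¹ * u' * k) * v * u'⁻¹ := by rw [hckc]; group
          _ = k⁻¹ * u' * k * u'⁻¹ := by
              have := hYc v hvY _ hqW
              rw [mul_assoc v⁻¹, this, inv_mul_cancel_left]
      have hcomm : k⁻¹ * m * k * m⁻¹ = u⁻¹ * cg c f * u := by
        have : cg c f = f⁻¹ * (c * f * c⁻¹) := rfl
        rw [this, hcf, hm, hf, hu']
        unfold cg
        group
      rw [hcomm]
      have := hZ2n.conj_mem _ (hZ.act c f hfZ) u⁻¹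
      simpa using this

end Cfsg.Agent.Lib.Helper94.RUW
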